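import Groth.Agent.CohtopA.MVElem
import Groth.Agent.CohqA.MV
import Groth.Agent.CohtopA.DimShift
import Groth.Agent.CohtopA.KillClass
import Mathlib.Topology.Separation.Hausdorff

/-!
# Germs of cohomology classes along a subset

`T` a space, `F` an abelian sheaf on `T`, `K ⊆ T`.

* `IndZero F K q`: every class in `H^q(U, F)`, `U` an open neighbourhood of `K`, dies on a smaller
  neighbourhood of `K`, i.e. `colim_{U ⊇ K} H^q(U, F) = 0`.
* `Sep K L`: neighbourhoods of `K ∩ L` contain `A ∩ B` with `A ⊇ K`, `B ⊇ L`; `sep_of_isCompact`.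
* `Split F K L q`: germs of degree `q` classes along `K ∩ L` are differences of germs along `K`
  and along `L`.
* `IndZero.union_split`, `IndZero.union`: Mayer-Vietoris.
* `indZero_biUnion`: finite closed covers.
* `IndZero.ses₁`, `IndZero.ses₂`, `IndZero.ses₃`, `exists_lift`: short exact sequences.
* `indZero_singleton`: local vanishing; `IndZero.congr`, `IndZero.of_retract`.
-/

set_option autoImplicit false
universe u

open CategoryTheory Abelian Limits Opposite TopologicalSpace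

noncomputable section

namespace Groth.Agent.Gaga.H41.Ind

open Groth.Agent.CohtopA.MVElem Groth.Agent.CohtopA.FreeAb

variable {T : TopCat.{u}} (F : CohTop.Ab T)

/-- Germs of degree `q` classes along `K` vanish. -/
def IndZero (K : Set T) (q : ℕ) : Prop :=
  ∀ (U : Opens T), K ⊆ U → ∀ a : CohTop.HU F q U,
    ∃ (V : Opens T) (hV : V ≤ U), K ⊆ V ∧ CohTop.res F q hV a = 0

/-- Neighbourhoods of `K ∩ L` contain intersections of neighbourhoods of `K` and of `L`. -/
def Sep (K L : Set T) : Prop :=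
  ∀ W : Opens T, K ∩ L ⊆ W → ∃ A B : Opens T, K ⊆ A ∧ L ⊆ B ∧ A ⊓ B ≤ W

/-- Germs of degree `q` classes along `K ∩ L` are differences of germs along `K` and along `L`. -/
def Split (K L : Set T) (q : ℕ) : Prop :=
  ∀ (W : Opens T), K ∩ L ⊆ W → ∀ η : CohTop.HU F q W,
    ∃ (A B : Opens T) (hAB : A ⊓ B ≤ W), K ⊆ A ∧ L ⊆ B ∧
      ∃ (x : CohTop.HU F q A) (y : CohTop.HU F q B),
        CohTop.res F q hAB η = CohTop.res F q inf_le_left x - CohTop.res F q inf_le_right y

theorem Sep.symm {K L : Set T} (h : Sep K L) : Sep L K := by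
  intro W hW
  obtain ⟨A, B, hA, hB, hAB⟩ := h W (by rwa [Set.inter_comm])
  exact ⟨B, A, hB, hA, by rwa [inf_comm]⟩

theorem sep_of_isCompact [T2Space T] {K L : Set T} (hK : IsCompact K) (hL : IsCompact L) :
    Sep K L := by
  intro W hW
  have h1 : IsCompact (K \ (W : Set T)) := hK.diff W.isOpen
  have h2 : IsCompact (L \ (W : Set T)) := hL.diff W.isOpen
  have hd : Disjoint (K \ (W : Set T)) (L \ (W : Set T)) := by
    rw [Set.disjoint_left]
    rintro x ⟨hx, hxW⟩ ⟨hx', -⟩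
    exact hxW (hW ⟨hx, hx'⟩)
  obtain ⟨A, B, hA, hB, hKA, hLB, hAB⟩ := SeparatedNhds.of_isCompact_isCompact h1 h2 hd
  refine ⟨W ⊔ ⟨A, hA⟩, W ⊔ ⟨B, hB⟩, ?_, ?_, ?_⟩
  · intro x hx
    by_cases h : x ∈ (W : Set T)
    · exact Or.inl h
    · exact Or.inr (hKA ⟨hx, h⟩)
  · intro x hx
    by_cases h : x ∈ (W : Set T)
    · exact Or.inl h
    · exact Or.inr (hLB ⟨hx, h⟩)
  · rintro x ⟨h1 | h1, h2 | h2⟩
    · exact h1
    · exact h1
    · exact h2
    · exact absurd h2 (Set.disjoint_left.1 hAB h1)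

variable {F}

theorem IndZero.split {K L : Set T} (hs : Sep K L) {q : ℕ} (h : IndZero F (K ∩ L) q) :
    Split F K L q := by
  intro W hW η
  obtain ⟨V, hVW, hV, h0⟩ := h W hW η
  obtain ⟨A, B, hA, hB, hAB⟩ := hs V hV
  refine ⟨A, B, hAB.trans hVW, hA, hB, 0, 0, ?_⟩
  rw [← res_res F q hVW hAB, h0, map_zero, map_zero, map_zero, sub_zero]

theorem IndZero.shrink {K : Set T} {q : ℕ} (h : IndZero F K q) {U : Opens T} (hU : K ⊆ U)
    (a : CohTop.HU F q U) (W : Opens T) (hW : K ⊆ W) :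
    ∃ (V : Opens T) (hV : V ≤ U), K ⊆ V ∧ V ≤ W ∧ CohTop.res F q hV a = 0 := by
  obtain ⟨V, hVU, hV, h0⟩ := h U hU a
  refine ⟨V ⊓ W, inf_le_left.trans hVU, fun x hx => ⟨hV hx, hW hx⟩, inf_le_right, ?_⟩
  rw [← res_res F q hVU inf_le_left, h0, map_zero]

/-- **Mayer-Vietoris.** -/
theorem IndZero.union_split {K L : Set T} {q : ℕ} (hK : IndZero F K (q + 1))
    (hL : IndZero F L (q + 1)) (hKL : Split F K L q) : IndZero F (K ∪ L) (q + 1) := by
  intro U hU a
  obtain ⟨A, hAU, hA, ha⟩ := hK U (Set.subset_union_left.trans hU) a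
  obtain ⟨B, hBU, hB, hb⟩ := hL U (Set.subset_union_right.trans hU) a
  obtain ⟨η, hη⟩ := exists_δ F (A := A) (B := B) q (CohTop.res F (q + 1) (sup_le hAU hBU) a)
    (by rw [res_res]; exact ha) (by rw [res_res]; exact hb)
  obtain ⟨A', B', hAB', hA', hB', x, y, hxy⟩ := hKL (A ⊓ B) (Set.inter_subset_inter hA hB) η
  have hAA : A ⊓ A' ≤ A := inf_le_left
  have hBB : B ⊓ B' ≤ B := inf_le_left
  have hAA' : A ⊓ A' ≤ A' := inf_le_right
  have hBB' : B ⊓ B' ≤ B' := inf_le_right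
  refine ⟨(A ⊓ A') ⊔ (B ⊓ B'), sup_le (hAA.trans hAU) (hBB.trans hBU), ?_, ?_⟩
  · rintro z (hz | hz)
    · exact Or.inl ⟨hA hz, hA' hz⟩
    · exact Or.inr ⟨hB hz, hB' hz⟩
  · rw [← res_res F (q + 1) (sup_le hAU hBU) (sup_le_sup hAA hBB), ← hη, res_δ F hAA hBB]
    have h3 : (A ⊓ A') ⊓ (B ⊓ B') ≤ A' ⊓ B' := inf_le_inf inf_le_right inf_le_right
    have h4 := congrArg (CohTop.res F q h3) hxy
    rw [res_res, map_sub, res_res, res_res] at h4
    have h2 : CohTop.res F q (inf_le_inf hAA hBB) η =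
        CohTop.res F q inf_le_left (CohTop.res F q hAA' x) -
          CohTop.res F q inf_le_right (CohTop.res F q hBB' y) := by
      rw [res_res, res_res]
      exact h4
    rw [h2, map_sub, δ_res_left, δ_res_right, sub_zero]

/-- **Mayer-Vietoris.** -/
theorem IndZero.union {K L : Set T} (hs : Sep K L) {q : ℕ} (hK : IndZero F K (q + 1))
    (hL : IndZero F L (q + 1)) (hKL : IndZero F (K ∩ L) q) : IndZero F (K ∪ L) (q + 1) :=
  hK.union_split hL (hKL.split hs)

theorem indZero_empty (q : ℕ) : IndZero F (∅ : Set T) q := by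
  intro U _ a
  refine ⟨⊥, bot_le, Set.empty_subset _, ?_⟩
  have := Groth.Agent.CohqA.MV.subsingleton_bot F q
  exact Subsingleton.elim _ _

/-- **Finite closed covers.** If all non-empty finite intersections of the `K i`, `i ∈ s`, are
acyclic in positive degrees then the germs of degree `q + 1` along the union vanish for
`q + 1 ≥ #s`. -/
theorem indZero_biUnion [T2Space T] {ι : Type*} [DecidableEq ι] (s : Finset ι) :
    ∀ (K : ι → Set T), (∀ i ∈ s, IsCompact (K i)) →
      (∀ t ⊆ s, t.Nonempty → ∀ q, IndZero F (⋂ i ∈ t, K i) (q + 1)) →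
      ∀ q, s.card ≤ q + 1 → IndZero F (⋃ i ∈ s, K i) (q + 1) := by
  induction s using Finset.induction_on with
  | empty =>
    intro K _ _ q _
    simpa using indZero_empty (F := F) (q + 1)
  | insert j s hj ih =>
    intro K hK hacy q hq
    rw [Finset.card_insert_of_notMem hj] at hq
    rw [Finset.set_biUnion_insert]
    have hc1 : IsCompact (K j) := hK j (Finset.mem_insert_self j s)
    have hc2 : IsCompact (⋃ i ∈ s, K i) :=
      s.isCompact_biUnion fun i hi => hK i (Finset.mem_insert_of_mem hi)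
    by_cases hs : s = ∅
    · subst hs
      have := hacy {j} (by simp) (by simp) q
      simpa using this
    have hs' : 0 < s.card := Finset.card_pos.2 (Finset.nonempty_iff_ne_empty.2 hs)
    obtain ⟨q, rfl⟩ : ∃ p, q = p + 1 := ⟨q - 1, by omega⟩
    refine IndZero.union (sep_of_isCompact hc1 hc2) ?_ ?_ ?_
    · have := hacy {j} (by simp) (by simp) (q + 1)
      simpa using this
    · exact ih K (fun i hi => hK i (Finset.mem_insert_of_mem hi))
        (fun t ht => hacy t (ht.trans (Finset.subset_insert j s))) _ (by omega)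
    · rw [Set.inter_iUnion₂]
      refine ih (fun i => K j ∩ K i) (fun i hi => hc1.inter (hK i (Finset.mem_insert_of_mem hi)))
        ?_ q (by omega)
      intro t ht htn q'
      have h1 : (⋂ i ∈ t, K j ∩ K i) = ⋂ i ∈ insert j t, K i := by
        rw [Finset.set_biInter_insert]
        ext x
        simp only [Set.mem_iInter, Set.mem_inter_iff]
        constructor
        · intro h
          obtain ⟨i, hi⟩ := htn
          exact ⟨(h i hi).1, fun i hi => (h i hi).2⟩
        · rintro ⟨h1, h2⟩ i hi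
          exact ⟨h1, h2 i hi⟩
      rw [h1]
      exact hacy _ (Finset.insert_subset_insert j ht) (Finset.insert_nonempty j t) q'

/-! ### Functoriality in the sheaf -/

section Functor

variable {G : CohTop.Ab T}

theorem HUmap_apply (φ : F ⟶ G) (q : ℕ) (U : Opens T) (a : CohTop.HU F q U) :
    CohTop.HUmap φ q U a = Ext.comp a (Ext.mk₀ φ) (add_zero q) := rfl

theorem res_apply (q : ℕ) {U V : Opens T} (h : V ≤ U) (a : CohTop.HU F q U) :
    CohTop.res F q h a =
      (Ext.mk₀ (freeAbMap (Opens.grothendieckTopology T) (homOfLE h))).comp a (zero_add q) := rfl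

theorem res_HUmap (φ : F ⟶ G) (q : ℕ) {U V : Opens T} (h : V ≤ U) (a : CohTop.HU F q U) :
    CohTop.res G q h (CohTop.HUmap φ q U a) = CohTop.HUmap φ q V (CohTop.res F q h a) := by
  rw [HUmap_apply, HUmap_apply, res_apply, res_apply]
  exact (Ext.comp_assoc _ _ _ _ _ (by omega)).symm

/-- The connecting map in the long exact sequence of a short exact sequence of sheaves. -/
def dd {S : ShortComplex (CohTop.Ab T)} (hS : S.ShortExact) (q : ℕ) (U : Opens T) :
    CohTop.HU S.X₃ q U →+ CohTop.HU S.X₁ (q + 1) U :=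
  hS.extClass.postcomp _ rfl

theorem dd_apply {S : ShortComplex (CohTop.Ab T)} (hS : S.ShortExact) (q : ℕ) (U : Opens T)
    (a : CohTop.HU S.X₃ q U) : dd hS q U a = Ext.comp a hS.extClass rfl := rfl

theorem res_dd {S : ShortComplex (CohTop.Ab T)} (hS : S.ShortExact) (q : ℕ) {U V : Opens T}
    (h : V ≤ U) (a : CohTop.HU S.X₃ q U) :
    CohTop.res S.X₁ (q + 1) h (dd hS q U a) = dd hS q V (CohTop.res S.X₃ q h a) := by
  rw [dd_apply, dd_apply, res_apply, res_apply]
  exact (Ext.comp_assoc _ _ _ _ _ (by omega)).symm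

variable {S : ShortComplex (CohTop.Ab T)} (hS : S.ShortExact)

include hS

theorem exists_of_HUmap_f_eq_zero {q : ℕ} {U : Opens T} (a : CohTop.HU S.X₁ (q + 1) U)
    (ha : CohTop.HUmap S.f (q + 1) U a = 0) : ∃ b, dd hS q U b = a :=
  Ext.covariant_sequence_exact₁ _ hS a ha rfl

theorem exists_of_HUmap_g_eq_zero {q : ℕ} {U : Opens T} (a : CohTop.HU S.X₂ q U)
    (ha : CohTop.HUmap S.g q U a = 0) : ∃ b, CohTop.HUmap S.f q U b = a :=
  Ext.covariant_sequence_exact₂ _ hS a ha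

theorem exists_of_dd_eq_zero {q : ℕ} {U : Opens T} (a : CohTop.HU S.X₃ q U)
    (ha : dd hS q U a = 0) : ∃ b, CohTop.HUmap S.g q U b = a :=
  Ext.covariant_sequence_exact₃ _ hS a rfl ha

theorem IndZero.ses₂ {K : Set T} {q : ℕ} (h1 : IndZero S.X₁ K q) (h3 : IndZero S.X₃ K q) :
    IndZero S.X₂ K q := by
  intro U hU a
  obtain ⟨V, hVU, hV, h0⟩ := h3 U hU (CohTop.HUmap S.g q U a)
  rw [res_HUmap] at h0
  obtain ⟨b, hb⟩ := exists_of_HUmap_g_eq_zero hS _ h0
  obtain ⟨W, hWV, hW, h00⟩ := h1 V hV b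
  refine ⟨W, hWV.trans hVU, hW, ?_⟩
  rw [← res_res _ q hVU hWV, ← hb, res_HUmap, h00, map_zero]

theorem IndZero.ses₃ {K : Set T} {q : ℕ} (h2 : IndZero S.X₂ K q) (h1 : IndZero S.X₁ K (q + 1)) :
    IndZero S.X₃ K q := by
  intro U hU a
  obtain ⟨V, hVU, hV, h0⟩ := h1 U hU (dd hS q U a)
  rw [res_dd] at h0
  obtain ⟨b, hb⟩ := exists_of_dd_eq_zero hS _ h0
  obtain ⟨W, hWV, hW, h00⟩ := h2 V hV b
  refine ⟨W, hWV.trans hVU, hW, ?_⟩
  rw [← res_res _ q hVU hWV, ← hb, res_HUmap, h00, map_zero]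

theorem IndZero.ses₁ {K : Set T} {q : ℕ} (h3 : IndZero S.X₃ K q) (h2 : IndZero S.X₂ K (q + 1)) :
    IndZero S.X₁ K (q + 1) := by
  intro U hU a
  obtain ⟨V, hVU, hV, h0⟩ := h2 U hU (CohTop.HUmap S.f (q + 1) U a)
  rw [res_HUmap] at h0
  obtain ⟨b, hb⟩ := exists_of_HUmap_f_eq_zero hS _ h0
  obtain ⟨W, hWV, hW, h00⟩ := h3 V hV b
  refine ⟨W, hWV.trans hVU, hW, ?_⟩
  rw [← res_res _ (q + 1) hVU hWV, ← hb, res_dd, h00, map_zero]

/-- Classes near `K` lift if the next cohomology of the kernel vanishes near `K`. -/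
theorem exists_lift {K : Set T} {q : ℕ} (h1 : IndZero S.X₁ K (q + 1)) {U : Opens T} (hU : K ⊆ U)
    (a : CohTop.HU S.X₃ q U) : ∃ (V : Opens T) (hV : V ≤ U), K ⊆ V ∧
      ∃ b : CohTop.HU S.X₂ q V, CohTop.HUmap S.g q V b = CohTop.res S.X₃ q hV a := by
  obtain ⟨V, hVU, hV, h0⟩ := h1 U hU (dd hS q U a)
  rw [res_dd] at h0
  exact ⟨V, hVU, hV, exists_of_dd_eq_zero hS _ h0⟩

omit hS

theorem IndZero.of_retract {K : Set T} {q : ℕ} (i : G ⟶ F) (r : F ⟶ G) (h : i ≫ r = 𝟙 G)
    (hF : IndZero F K q) : IndZero G K q := by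
  intro U hU a
  obtain ⟨V, hVU, hV, h0⟩ := hF U hU (CohTop.HUmap i q U a)
  refine ⟨V, hVU, hV, ?_⟩
  rw [res_HUmap] at h0
  have h1 := congrArg (CohTop.HUmap r q V) h0
  rw [map_zero, HUmap_apply, HUmap_apply, Ext.comp_assoc_of_third_deg_zero, Ext.mk₀_comp_mk₀, h,
    Ext.comp_mk₀_id] at h1
  exact h1

theorem IndZero.congr {K : Set T} {q : ℕ} (e : F ≅ G) (hF : IndZero F K q) : IndZero G K q :=
  hF.of_retract e.inv e.hom e.inv_hom_id

theorem IndZero.biprod {K : Set T} {q : ℕ} (hF : IndZero F K q) (hG : IndZero G K q) :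
    IndZero (F ⊞ G) K q := by
  have hS : (ShortComplex.mk (biprod.inl : F ⟶ F ⊞ G) biprod.snd (by simp)).ShortExact :=
    (ShortComplex.Splitting.ofHasBinaryBiproduct F G).shortExact
  exact IndZero.ses₂ hS hF hG

end Functor

/-- **Local vanishing** of positive degree classes at a point. -/
theorem indZero_singleton (x : T) (q : ℕ) : IndZero F {x} (q + 1) := by
  intro U hU a
  obtain ⟨S, hS⟩ := Groth.Agent.CohtopA.KillClass.exists_cover_res_eq_zero F U q a
  obtain ⟨V, f, hf, hx⟩ := S.2 x (hU rfl)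
  exact ⟨V, leOfHom f, by simpa using hx, hS ⟨V, f, hf⟩⟩

end Groth.Agent.Gaga.H41.Ind
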